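import Cfsg.Agent.Lib.FFModules.MinimalParabolic.OffenderInProduct
import Cfsg.Agent.Lib.PushUp.RankOne.PlanarSplit
import Cfsg.Agent.Lib.StronglyPEmbedded.Basic

/-!
Odd characteristic: the `SL₂` components of a `p`-minimal group with an offender.
-/

set_option autoImplicit false
set_option linter.unusedSectionVars false
set_option linter.style.haveILetI false

namespace CfsgLib.PushUp.OddTransfer

open CfsgLib.FFModules.SL2Pair CfsgLib.FFModules.MinimalParabolic
open CfsgLib.ClassicalLinear (upS upS_coe upS_add upS_injective mem_upperSL)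
open CfsgLib.PushUp.RankOne (negS negS_mulVec negS_comm negS_sq diagS diagS_coe weylS weylS_coe)
open scoped MatrixGroups Matrix Pointwise

/-- A `p`-subgroup of `SL₂` is conjugate to upper unitriangular matrices. -/
theorem exists_conj_le_upper {F : Type} [Field F] [Fintype F] {p : ℕ} [Fact p.Prime] [CharP F p]
    {P : Subgroup SL(2, F)} (hP : IsPGroup p P) : ∃ h : SL(2, F), ∀ g ∈ P, h⁻¹ * g * h ∈ CfsgLib.ClassicalLinear.upperSL := by
  obtain ⟨S, hS⟩ := hP.exists_le_sylow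
  obtain ⟨h, hh⟩ := CfsgLib.ClassicalLinear.exists_conj_upperSL (F := F) p S
  exact ⟨h, fun g hg => (hh g).1 (hS hg)⟩

theorem sl2_comm {F : Type} [Field F] [Fintype F] {p : ℕ} [Fact p.Prime] [CharP F p]
    {P : Subgroup SL(2, F)} (hP : IsPGroup p P) {x y : SL(2, F)} (hx : x ∈ P) (hy : y ∈ P) :
    x * y = y * x := by
  obtain ⟨h, hh⟩ := exists_conj_le_upper hP
  obtain ⟨s, hs⟩ := mem_upperSL.1 (hh x hx)
  obtain ⟨u, hu⟩ := mem_upperSL.1 (hh y hy)
  have e1 : x = h * upS s * h⁻¹ := by rw [hs]; group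
  have e2 : y = h * upS u * h⁻¹ := by rw [hu]; group
  rw [e1, e2]
  calc h * upS s * h⁻¹ * (h * upS u * h⁻¹) = h * (upS s * upS u) * h⁻¹ := by group
    _ = h * (upS u * upS s) * h⁻¹ := by rw [← upS_add, ← upS_add, add_comm]
    _ = _ := by group

variable {H W : Type*} [Group H] [AddCommGroup W] [DistribMulAction H W]
variable {r : ℕ} {E : Fin r → Subgroup H}

theorem mem_fixedSub_iSup {v : W} : v ∈ fixedSub (⨆ i, E i) ↔ ∀ i, v ∈ fixedSub (E i) :=
  ⟨fun h i => fixedSub_anti (le_iSup E i) h, fun h => fun g hg => MulAction.mem_stabilizer_iff.1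
    ((iSup_le fun i x hx => MulAction.mem_stabilizer_iff.2 (h i x hx) :
      (⨆ i, E i) ≤ MulAction.stabilizer H v) hg)⟩

/-- Each element of the product agrees with an element of a component on that component. -/
theorem exists_proj (hE : IsComponents E W) (i : Fin r) {g : H} (hg : g ∈ ⨆ j, E j) :
    (∀ v ∈ fixedSub (E i), g • v ∈ (fixedSub (E i) : AddSubgroup W)) ∧
      ∃ e ∈ E i, (∀ v : W, g • v - e • v ∈ fixedSub (E i)) ∧ ∀ m ∈ moves (E i) W, g • m = e • m := by
  induction hg using Subgroup.iSup_induction' with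
  | hp j x hx =>
    rcases eq_or_ne i j with rfl | hij
    · exact ⟨fun v hv => by rw [hv x hx]; exact hv, x, hx,
        fun v => by rw [sub_self]; exact zero_mem _, fun m _ => rfl⟩
    · refine ⟨fun v hv => fun e he => ?_, 1, one_mem _, fun v => ?_, fun m hm => ?_⟩
      · rw [smul_smul, hE.comm i j hij e he x hx, mul_smul, hv e he]
      · rw [one_smul]; exact hE.cross j i hij.symm (sub_mem_moves hx v)
      · rw [one_smul]; exact hE.cross i j hij hm x hx
  | h1 => exact ⟨fun v hv => by rwa [one_smul], 1, one_mem _,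
      fun v => by rw [sub_self]; exact zero_mem _, fun m _ => rfl⟩
  | hmul a b _ _ iha ihb =>
    obtain ⟨ha, e, he, ha1, ha2⟩ := iha
    obtain ⟨hb, e', he', hb1, hb2⟩ := ihb
    refine ⟨fun v hv => by rw [mul_smul]; exact ha _ (hb v hv), e * e', mul_mem he he', fun v => ?_,
      fun m hm => ?_⟩
    · have := add_mem (ha _ (hb1 v)) (ha1 (e' • v))
      rwa [smul_sub, sub_add_sub_cancel, ← mul_smul, ← mul_smul] at this
    · rw [mul_smul, hb2 m hm, ha2 _ (smul_mem_moves_self he' hm), mul_smul]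

/-- `ψ` records the action of an element. -/
theorem rho_eq {F : Type} [Field F] {E₀ : Subgroup H} {ρ : E₀ ≃* SL(2, F)} {ψ : W →+ (Fin 2 → F)}
    (hψ : Function.Surjective ψ)
    (heq : ∀ (g : E₀) (v : W), ψ ((g : H) • v) = ((ρ g : SL(2, F)) : Matrix (Fin 2) (Fin 2) F) *ᵥ ψ v)
    {g : E₀} {A : SL(2, F)} (h : ∀ v : W, ψ ((g : H) • v) = (A : Matrix (Fin 2) (Fin 2) F) *ᵥ ψ v) :
    ρ g = A := by
  apply Subtype.ext
  refine Matrix.ext fun a b => ?_
  obtain ⟨v, hv⟩ := hψ (Pi.single b 1)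
  have h1 := congrFun ((heq g v).symm.trans (h v)) a
  rw [hv] at h1
  simpa using h1

variable [Finite H] [Finite W] {p : ℕ} [Fact p.Prime] {T : Sylow p H} {M : Subgroup H}

theorem charP_of_card {F : Type} [Field F] [Fintype F] {n : ℕ} (hcard : Fintype.card F = p ^ n) :
    CharP F p := by
  obtain ⟨c, hc⟩ := CharP.exists F
  haveI := hc
  obtain ⟨m, hcp, hm⟩ := FiniteField.card F c
  have h1 : c ∣ p := hcp.dvd_of_dvd_pow (hcard ▸ hm ▸ dvd_pow_self c m.pos.ne')
  rwa [(Nat.prime_dvd_prime_iff_eq hcp Fact.out).1 h1] at hc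

/-- `p`-subgroups of the product of the components are abelian. -/
theorem comm_of_pgroup (h : Base p T M W) (hE : IsComponents E W) (htype : ∀ i, IsSL2Comp p (E i) W)
    {P : Subgroup H} (hP : IsPGroup p P) (hPE : P ≤ ⨆ i, E i) {x y : H} (hx : x ∈ P) (hy : y ∈ P) :
    x * y = y * x := by
  set g := x * y * x⁻¹ * y⁻¹ with hg
  have hgP : g ∈ P := mul_mem (mul_mem (mul_mem hx hy) (inv_mem hx)) (inv_mem hy)
  suffices g = 1 from mul_inv_eq_iff_eq_mul.1 (mul_inv_eq_one.1 this)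
  have hfix : ∀ i, ∀ m ∈ moves (E i) W, g • m = m := by
    intro i
    obtain ⟨F, hF, hF', n, ρ, ψ, -, hcard, hψ, hker, heq⟩ := htype i
    haveI := charP_of_card (p := p) hcard
    choose hinv e he he1 he2 using fun (u : P) => exists_proj hE i (hPE u.2)
    let φ : P →* SL(2, F) := MonoidHom.mk' (fun u => ρ ⟨e u, he u⟩) fun u u' => by
      refine rho_eq hψ heq fun v => ?_
      have h1 : ψ ((u * u' : P) • v) = ψ (e (u * u') • v) := by
        rw [← sub_eq_zero, ← map_sub]; exact (hker _).2 (he1 (u * u') v)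
      have h2 : ∀ (u : P) (v : W), ψ ((u : H) • v) = ((ρ ⟨e u, he u⟩ : SL(2, F)) : Matrix (Fin 2) (Fin 2) F) *ᵥ ψ v :=
        fun u v => by rw [← heq, ← sub_eq_zero, ← map_sub]; exact (hker _).2 (he1 u v)
      rw [show (((⟨e (u * u'), he _⟩ : E i) : H)) • v = e (u * u') • v from rfl, ← h1,
        Subgroup.smul_def, Subgroup.coe_mul, mul_smul, h2, h2, Matrix.mulVec_mulVec,
        Matrix.SpecialLinearGroup.coe_mul]
    have hφ : ∀ u u' : P, φ u * φ u' = φ u' * φ u := fun u u' =>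
      sl2_comm (P := φ.range) (IsPGroup.of_surjective hP φ.rangeRestrict φ.rangeRestrict_surjective) ⟨u, rfl⟩ ⟨u', rfl⟩
    set gP : P := ⟨g, hgP⟩
    have h1 : φ gP = 1 := by
      rw [show gP = ⟨x, hx⟩ * ⟨y, hy⟩ * (⟨x, hx⟩ : P)⁻¹ * (⟨y, hy⟩ : P)⁻¹ from rfl, map_mul, map_mul,
        map_mul, map_inv, map_inv, hφ, mul_inv_cancel_right, mul_inv_cancel]
    have h2 : e gP = 1 := by
      have := ρ.injective (h1.trans ρ.map_one.symm)
      exact congrArg Subtype.val this
    exact fun m hm => by rw [show g • m = e gP • m from he2 gP m hm, h2, one_smul]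
  refine h.faithful g fun v => ?_
  obtain ⟨c, hc, m, hm, rfl⟩ := AddSubgroup.mem_sup.1
    (show v ∈ fixedSub (⨆ i, E i) ⊔ ⨆ i, moves (E i) W from hE.fix_sup_moves ▸ AddSubgroup.mem_top v)
  rw [smul_add, hc g (hPE hgP)]
  congr 1
  induction hm using AddSubgroup.iSup_induction' with
  | hp i z hz => exact hfix i z hz
  | h1 => exact smul_zero g
  | hadd a b _ _ ha hb => rw [smul_add, ha, hb]

theorem two_ne_zero_of_ne (hp2 : p ≠ 2) (F : Type) [Field F] [CharP F p] : (2 : F) ≠ 0 := fun e => by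
  have h' : ((2 : ℕ) : F) = 0 := by exact_mod_cast e
  rw [CharP.cast_eq_zero_iff F p, Nat.prime_dvd_prime_iff_eq Fact.out Nat.prime_two] at h'
  exact hp2 h'

/-- A `p`-subgroup of the product fixes a vector of each component outside its fixed points. -/
theorem exists_fixed_moves (hE : IsComponents E W) (hodd : ∀ v : W, v = -v → v = 0) (hp2 : p ≠ 2)
    {i : Fin r} {F : Type} [Field F] [Fintype F] [CharP F p] {ρ : E i ≃* SL(2, F)}
    {ψ : W →+ (Fin 2 → F)} (hψ : Function.Surjective ψ) (hker : ∀ v, ψ v = 0 ↔ v ∈ fixedSub (E i))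
    (heq : ∀ (g : E i) (v : W), ψ ((g : H) • v) = ((ρ g : SL(2, F)) : Matrix (Fin 2) (Fin 2) F) *ᵥ ψ v)
    {U : Subgroup H} (hUp : IsPGroup p U) (hUE : U ≤ ⨆ j, E j) :
    ∃ v ∈ moves (E i) W, v ∈ fixedSub U ∧ v ∉ fixedSub (E i) := by
  choose hinv e he he1 he2 using fun (u : U) => exists_proj hE i (hUE u.2)
  have h2 : ∀ (u : U) (v : W), ψ ((u : H) • v) =
      ((ρ ⟨e u, he u⟩ : SL(2, F)) : Matrix (Fin 2) (Fin 2) F) *ᵥ ψ v := fun u v => by
    rw [← heq ⟨e u, he u⟩, ← sub_eq_zero, ← map_sub]; exact (hker _).2 (he1 u v)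
  let φ : U →* SL(2, F) := MonoidHom.mk' (fun u => ρ ⟨e u, he u⟩) fun u u' => by
    refine rho_eq hψ heq fun v => ?_
    rw [heq, ← h2, Subgroup.coe_mul, mul_smul, h2, h2, Matrix.mulVec_mulVec,
      Matrix.SpecialLinearGroup.coe_mul]
  obtain ⟨k, hk⟩ := exists_conj_le_upper
    (IsPGroup.of_surjective hUp φ.rangeRestrict φ.rangeRestrict_surjective)
  obtain ⟨v₀, hv₀⟩ := hψ ((k : Matrix (Fin 2) (Fin 2) F) *ᵥ ![1, 0])
  obtain ⟨z, hzρ⟩ := ρ.surjective (negS F)
  have hψz : ∀ v, ψ ((z : H) • v) = -ψ v := fun v => by rw [heq, hzρ, negS_mulVec]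
  have hzz : (z : H) * z = 1 := by
    have : z * z = 1 := ρ.injective (by rw [map_mul, hzρ, negS_sq, map_one])
    exact congrArg Subtype.val this
  refine ⟨v₀ - (z : H) • v₀, ?_, fun u hu => ?_, fun hv => ?_⟩
  · rw [← neg_sub]; exact neg_mem (sub_mem_moves z.2 v₀)
  · rw [he2 ⟨u, hu⟩ _ (by rw [← neg_sub]; exact neg_mem (sub_mem_moves z.2 v₀))]
    set g : E i := ⟨e ⟨u, hu⟩, he _⟩ with hg
    show (g : H) • (v₀ - (z : H) • v₀) = _
    have hgz : (z : H) * g = g * z := by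
      have : z * g = g * z := ρ.injective (by rw [map_mul, map_mul, hzρ, negS_comm])
      exact congrArg Subtype.val this
    obtain ⟨s, hs⟩ := mem_upperSL.1 (hk (ρ g) ⟨⟨u, hu⟩, rfl⟩)
    have hgk : ρ g * k = k * upS s := by rw [hs]; group
    have hfix1 : ((upS s : SL(2, F)) : Matrix (Fin 2) (Fin 2) F) *ᵥ ![1, 0] = ![1, 0] := by
      rw [upS_coe]; funext a; fin_cases a <;> simp
    have hw : ψ ((g : H) • v₀) = ψ v₀ := by
      rw [heq g v₀, hv₀, Matrix.mulVec_mulVec, ← Matrix.SpecialLinearGroup.coe_mul, hgk,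
        Matrix.SpecialLinearGroup.coe_mul, ← Matrix.mulVec_mulVec, hfix1]
    have hd : (g : H) • v₀ - v₀ ∈ fixedSub (E i) := (hker _).1 (by rw [map_sub, hw, sub_self])
    have h1 := hd (z : H) z.2
    rw [smul_sub, smul_smul, hgz, mul_smul] at h1
    rw [smul_sub]
    linear_combination (norm := abel) -h1
  · have h3 := (hker _).2 hv
    rw [map_sub, hψz, sub_neg_eq_add] at h3
    have h4 : ψ v₀ = 0 := funext fun a => (mul_eq_zero.1 (show (2 : F) * ψ v₀ a = 0 by
      rw [two_mul]; exact congrFun h3 a)).resolve_left (two_ne_zero_of_ne hp2 F)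
    rw [hv₀] at h4
    have h5 := congrArg (fun w => ((k⁻¹ : SL(2, F)) : Matrix (Fin 2) (Fin 2) F) *ᵥ w) h4
    simp only [Matrix.mulVec_mulVec, ← Matrix.SpecialLinearGroup.coe_mul, inv_mul_cancel,
      Matrix.SpecialLinearGroup.coe_one, Matrix.one_mulVec, Matrix.mulVec_zero] at h5
    simpa using congrFun h5 0

set_option maxHeartbeats 1600000 in
/-- If `T` fixes the fixed points of its part in the product, the first component is everything. -/
theorem comp_eq_top_of_fixes (h : Base p T M W) (hp2 : p ≠ 2) (hr : 1 ≤ r) (hE : IsComponents E W)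
    (htop : (⨆ i, E i) ⊔ (T : Subgroup H) = ⊤)
    (hconj : ∀ i j, ∃ t ∈ (T : Subgroup H), MulAut.conj t • E i = E j)
    (hperm : ∀ t ∈ (T : Subgroup H), ∀ i, ∃ j, MulAut.conj t • E i = E j)
    (htype : ∀ i, IsSL2Comp p (E i) W)
    (hfix : ∀ t ∈ (T : Subgroup H), ∀ v ∈ fixedSub ((T : Subgroup H) ⊓ ⨆ i, E i), t • (v : W) = v) :
    E ⟨0, hr⟩ = ⊤ := by
  classical
  set U := (T : Subgroup H) ⊓ ⨆ i, E i with hU
  have hinjE : ∀ i j, i ≠ j → E i ≠ E j := fun i j hij e => by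
    obtain ⟨F, hF, hF', n, ρ, ψ, -, -, hψ, hker, -⟩ := htype i
    have h1 : moves (E i) W ≤ fixedSub (E i) := e ▸ hE.cross i j hij
    obtain ⟨v, hv⟩ := hψ (Pi.single 0 1)
    have h2 : v ∈ fixedSub (E i) := (hE.split i ▸ sup_le h1 le_rfl :
      (⊤ : AddSubgroup W) ≤ fixedSub (E i)) (AddSubgroup.mem_top v)
    have := congrFun (((hker v).2 h2).symm.trans hv) 0
    simp at this
  have hodd : ∀ v : W, v = -v → v = 0 := fun v hv => by
    have h1 : (2 : ℕ) • v = 0 := by rw [two_nsmul]; exact eq_neg_iff_add_eq_zero.1 hv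
    have h2 : addOrderOf v ∣ Nat.gcd 2 p :=
      Nat.dvd_gcd (addOrderOf_dvd_of_nsmul_eq_zero h1) (addOrderOf_dvd_of_nsmul_eq_zero (h.exponent v))
    rw [(Nat.coprime_primes Nat.prime_two Fact.out).2 (Ne.symm hp2)] at h2
    exact AddMonoid.addOrderOf_eq_one_iff.1 (Nat.dvd_one.1 h2)
  -- every element of `T` normalizes every component
  have hnorm : ∀ t ∈ (T : Subgroup H), ∀ i, MulAut.conj t • E i = E i := by
    intro t ht i
    obtain ⟨j, hj⟩ := hperm t ht i
    by_contra hne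
    have hij : i ≠ j := fun e => hne (e ▸ hj)
    obtain ⟨F, hF, hF', n, ρ, ψ, -, hcard, hψ, hker, heq⟩ := htype i
    haveI := charP_of_card (p := p) hcard
    obtain ⟨v, hvm, hvU, hvE⟩ := exists_fixed_moves hE hodd hp2 hψ hker heq
      (T.2.to_le inf_le_left : IsPGroup p U) inf_le_right
    have htv := hfix t ht v hvU
    refine hvE fun g hg => ?_
    have h2 : v ∈ moves (E j) W := by
      have h3 : v ∈ moves (MulAut.conj t⁻¹ • (MulAut.conj t • E i)) W := by
        rw [map_inv, inv_smul_smul]; exact hvm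
      rw [hj] at h3
      have h4 := moves_smul (E j) t⁻¹ h3
      rwa [inv_inv, htv] at h4
    exact hE.cross j i hij.symm h2 g hg
  set i₀ : Fin r := ⟨0, hr⟩
  have hall : ∀ i, i = i₀ := fun i => by
    by_contra hne
    obtain ⟨t, ht, e⟩ := hconj i i₀
    exact hinjE i i₀ hne ((hnorm t ht i).symm.trans e)
  have hsup : (⨆ i, E i) = E i₀ := le_antisymm (iSup_le fun i => by rw [hall i]) (le_iSup E i₀)
  set E₀ := E i₀
  rw [hsup] at htop
  haveI hEn : E₀.Normal := by
    refine Subgroup.normalizer_eq_top_iff.1 (top_le_iff.1 ?_)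
    rw [← htop]
    exact sup_le Subgroup.le_normalizer fun t ht =>
      CfsgLib.FFModules.LLemma.mem_normalizer_of_conj_le (hnorm t ht i₀).le
  obtain ⟨F, hF, hF', n, ρ₁, ψ₁, hn, hcard, hψ₁, hker₁, heq₁⟩ := htype i₀
  haveI := charP_of_card (p := p) hcard
  suffices hTE : (T : Subgroup H) ≤ E₀ by
    rwa [sup_eq_left.2 hTE] at htop
  -- coordinates in which `U` is upper unitriangular
  obtain ⟨P, hP⟩ := CfsgLib.StronglyPEmbedded.exists_sylow_subgroupOf_eq T (A := E₀)
    (Subgroup.Normal.isSubnormal inferInstance)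
  obtain ⟨k, hk⟩ := CfsgLib.ClassicalLinear.exists_conj_upperSL (F := F) p
    (P.mapSurjective (f := ρ₁.toMonoidHom) ρ₁.surjective)
  let ρ : E₀ ≃* SL(2, F) := ρ₁.trans (MulAut.conj k⁻¹)
  let Lk : (Fin 2 → F) →+ (Fin 2 → F) :=
    (Matrix.mulVecLin ((k⁻¹ : SL(2, F)) : Matrix (Fin 2) (Fin 2) F)).toAddMonoidHom
  let ψ : W →+ (Fin 2 → F) := Lk.comp ψ₁
  have hψe : ∀ v, ψ v = ((k⁻¹ : SL(2, F)) : Matrix (Fin 2) (Fin 2) F) *ᵥ ψ₁ v := fun v => rfl
  have hψ : Function.Surjective ψ := fun w => by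
    obtain ⟨v, hv⟩ := hψ₁ ((k : Matrix (Fin 2) (Fin 2) F) *ᵥ w)
    refine ⟨v, ?_⟩
    rw [hψe, hv, Matrix.mulVec_mulVec, ← Matrix.SpecialLinearGroup.coe_mul, inv_mul_cancel,
      Matrix.SpecialLinearGroup.coe_one, Matrix.one_mulVec]
  have hker : ∀ v, ψ v = 0 ↔ v ∈ fixedSub E₀ := fun v => by
    rw [← hker₁, hψe]
    refine ⟨fun e => ?_, fun e => by rw [e, Matrix.mulVec_zero]⟩
    have := congrArg (fun w => (k : Matrix (Fin 2) (Fin 2) F) *ᵥ w) e
    simpa only [Matrix.mulVec_mulVec, ← Matrix.SpecialLinearGroup.coe_mul, mul_inv_cancel,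
      Matrix.SpecialLinearGroup.coe_one, Matrix.one_mulVec, Matrix.mulVec_zero] using this
  have heq : ∀ (g : E₀) (v : W), ψ ((g : H) • v) =
      ((ρ g : SL(2, F)) : Matrix (Fin 2) (Fin 2) F) *ᵥ ψ v := fun g v => by
    rw [hψe, hψe, heq₁, Matrix.mulVec_mulVec, Matrix.mulVec_mulVec, ← Matrix.SpecialLinearGroup.coe_mul,
      ← Matrix.SpecialLinearGroup.coe_mul]
    congr 2
    show k⁻¹ * ρ₁ g = k⁻¹ * ρ₁ g * k⁻¹⁻¹ * k⁻¹
    group
  have hmemU : ∀ g : E₀, (g : H) ∈ (T : Subgroup H) ↔ ∃ s, upS s = ρ g := fun g => by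
    rw [← mem_upperSL]
    have h1 := hk (ρ₁ g)
    rw [show ρ g = k⁻¹ * ρ₁ g * k by simp [ρ], ← h1]
    refine Iff.trans ?_ (Iff.trans (Subgroup.mem_map_iff_mem (f := ρ₁.toMonoidHom)
      (K := (P : Subgroup E₀)) ρ₁.injective).symm Iff.rfl)
    rw [hP, Subgroup.mem_subgroupOf]
  -- the complement of the fixed points
  set z : E₀ := ρ.symm (negS F)
  have hψz : ∀ v, ψ ((z : H) • v) = -ψ v := fun v => by
    rw [heq, MulEquiv.apply_symm_apply, negS_mulVec]
  have hzz : (z : H) * z = 1 := by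
    have : z * z = 1 := ρ.injective (by rw [map_mul, MulEquiv.apply_symm_apply, negS_sq, map_one])
    exact congrArg Subtype.val this
  have hzc : ∀ g : E₀, (z : H) * g = g * z := fun g => by
    have : z * g = g * z := ρ.injective (by rw [map_mul, map_mul, MulEquiv.apply_symm_apply, negS_comm])
    exact congrArg Subtype.val this
  have huniq : ∀ v v', (z : H) • v = -v → (z : H) • v' = -v' → ψ v = ψ v' → v = v' := fun v v' h1 h2 e => by
    refine sub_eq_zero.1 (hodd _ ?_)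
    have h3 : v - v' ∈ fixedSub E₀ := (hker _).1 (by rw [map_sub, e, sub_self])
    have h4 := h3 (z : H) z.2
    rw [smul_sub, h1, h2] at h4
    exact h4.symm.trans (by abel)
  have h2F : (2 : F) ≠ 0 := two_ne_zero_of_ne hp2 F
  have hlift : ∀ w, ∃ v, (z : H) • v = -v ∧ ψ v = w := fun w => by
    obtain ⟨v, hv⟩ := hψ ((2 : F)⁻¹ • w)
    refine ⟨v - (z : H) • v, by rw [smul_sub, smul_smul, hzz, one_smul, neg_sub], ?_⟩
    rw [map_sub, hψz, sub_neg_eq_add, hv, ← add_smul, ← two_mul, mul_inv_cancel₀ h2F, one_smul]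
  choose lam hlz hlψ using hlift
  have hlin : ∀ (g : E₀) w, (g : H) • lam w = lam (((ρ g : SL(2, F)) : Matrix (Fin 2) (Fin 2) F) *ᵥ w) :=
    fun g w => huniq _ _ (by rw [smul_smul, hzc, ← smul_smul, hlz, smul_neg]) (hlz _)
      (by rw [heq, hlψ, hlψ])
  set L : F → W := fun s => lam ![s, 0]
  have hLU : ∀ s, L s ∈ fixedSub U := fun s u hu => by
    have hu' : u ∈ E₀ := hsup ▸ hu.2
    obtain ⟨σ, hσ⟩ := (hmemU ⟨u, hu'⟩).1 hu.1
    rw [show u • L s = ((⟨u, hu'⟩ : E₀) : H) • lam ![s, 0] from rfl, hlin, ← hσ]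
    congr 1
    funext a; fin_cases a <;> simp [upS_coe, Matrix.mulVec, dotProduct, Fin.sum_univ_two]
  intro t ht
  have htL : ∀ s, t • L s = L s := fun s => hfix t ht _ (hLU s)
  have htL' : ∀ s, t⁻¹ • L s = L s := fun s => hfix _ (inv_mem ht) _ (hLU s)
  let c : E₀ → E₀ := fun g => ⟨t * g * t⁻¹, hEn.conj_mem _ g.2 t⟩
  have hcmul : ∀ g g' : E₀, c (g * g') = c g * c g' := fun g g' => Subtype.ext (by simp [c, mul_assoc])
  -- conjugates of elements fixing the axis
  have haxis : ∀ (g : E₀) (a : F), (∀ s, (g : H) • L s = L (a * s)) →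
      ((ρ (c g) : SL(2, F)) : Matrix (Fin 2) (Fin 2) F) 0 0 = a ∧
      ((ρ (c g) : SL(2, F)) : Matrix (Fin 2) (Fin 2) F) 1 0 = 0 := fun g a hg => by
    have h1 : (c g : H) • L 1 = L a := by
      show (t * g * t⁻¹) • L 1 = _
      rw [mul_smul, mul_smul, htL', hg, htL, mul_one]
    have h2 := congrArg ψ h1
    rw [show L 1 = lam ![1, 0] from rfl, heq, hlψ, show L a = lam ![a, 0] from rfl, hlψ] at h2
    exact ⟨by simpa [Matrix.mulVec, dotProduct, Fin.sum_univ_two] using congrFun h2 0,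
      by simpa [Matrix.mulVec, dotProduct, Fin.sum_univ_two] using congrFun h2 1⟩
  have hcU : ∀ s, ∃ s', ρ (c (ρ.symm (upS s))) = upS s' := fun s => by
    refine ((hmemU _).1 ?_).imp fun _ e => e.symm
    exact mul_mem (mul_mem ht ((hmemU _).2 ⟨s, (ρ.apply_symm_apply _).symm⟩)) (inv_mem ht)
  choose f hf using hcU
  have hfadd : ∀ s s', f (s + s') = f s + f s' := fun s s' => upS_injective (by
    rw [← hf, upS_add, upS_add, map_mul, hcmul, map_mul, hf, hf])
  have hfsq : ∀ a s, f (a ^ 2 * s) = a ^ 2 * f s := fun a s => by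
    by_cases ha : a = 0
    · subst ha
      have : f 0 = 0 := by simpa using hfadd 0 0
      simp [this]
    · set d := ρ.symm (diagS a ha)
      obtain ⟨h00, h10⟩ := haxis d a fun s => by
        rw [show L s = lam ![s, 0] from rfl, hlin, MulEquiv.apply_symm_apply]
        congr 1
        funext b; fin_cases b <;> simp [diagS_coe, Matrix.mulVec, dotProduct, Fin.sum_univ_two]
      refine upS_injective ?_
      have e : ρ.symm (upS (a ^ 2 * s)) = d * ρ.symm (upS s) * d⁻¹ := ρ.injective (by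
        simp only [d, map_mul, map_inv, MulEquiv.apply_symm_apply]
        rw [CfsgLib.PushUp.RankOne.diagS_conj_upS])
      have hci : c d⁻¹ = (c d)⁻¹ := Subtype.ext (by simp [c, mul_assoc])
      rw [← hf, e, hcmul, hcmul, hci, map_mul, map_mul, map_inv, hf,
        CfsgLib.PushUp.RankOne.conj_upS h10, h00]
  have hfmul : ∀ a s, f (a * s) = a * f s := fun a s => by
    have h1 := hfsq ((a + 1) / 2) s
    have h3 := hfsq ((a - 1) / 2) s
    have e : ((a + 1) / 2) ^ 2 * s = a * s + ((a - 1) / 2) ^ 2 * s := by field_simp; ring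
    rw [e, hfadd, h3] at h1
    have e2 : a * f s = ((a + 1) / 2) ^ 2 * f s - ((a - 1) / 2) ^ 2 * f s := by field_simp; ring
    rw [e2, ← h1]; ring
  have hf1 : ∀ s, f s = s * f 1 := fun s => by simpa using hfmul s 1
  have hc1 : f 1 = 1 := by
    obtain ⟨m, hm⟩ := T.2 ⟨t, ht⟩
    have hm' : t ^ p ^ m = 1 := congrArg Subtype.val hm
    have key : ∀ j : ℕ, t ^ j * (ρ.symm (upS 1) : H) * (t ^ j)⁻¹ = (ρ.symm (upS (f 1 ^ j)) : H) := by
      intro j
      induction j with
      | zero => simp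
      | succ j ih =>
        rw [pow_succ', show t * t ^ j * (ρ.symm (upS 1) : H) * (t * t ^ j)⁻¹ =
          t * (t ^ j * (ρ.symm (upS 1) : H) * (t ^ j)⁻¹) * t⁻¹ by group, ih]
        refine congrArg Subtype.val (show c (ρ.symm (upS (f 1 ^ j))) = ρ.symm (upS (f 1 ^ (j + 1))) from
          ρ.injective ?_)
        rw [hf, MulEquiv.apply_symm_apply, hf1, pow_succ]
    have h1 := key (p ^ m)
    rw [hm', one_mul, inv_one, mul_one] at h1
    have h2 : (1 : F) = f 1 ^ p ^ m := upS_injective (ρ.symm.injective (Subtype.ext h1))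
    exact sub_eq_zero.1 (pow_eq_zero_iff (pow_ne_zero m (Fact.out : p.Prime).ne_zero) |>.1
      (by rw [sub_pow_char_pow, one_pow, ← h2, sub_self]))
  have hfid : ∀ s, f s = s := fun s => by rw [hf1, hc1, mul_one]
  -- the conjugate of the Weyl element
  set w := ρ.symm (weylS F)
  set x := ρ (c w) with hx
  have hwz : w * w = z := ρ.injective (by
    rw [map_mul, MulEquiv.apply_symm_apply, MulEquiv.apply_symm_apply]
    apply Subtype.ext
    rw [Matrix.SpecialLinearGroup.coe_mul, weylS_coe]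
    show _ = !![(-1 : F), 0; 0, -1]
    ext a b; fin_cases a <;> fin_cases b <;> simp [Matrix.mul_apply, Fin.sum_univ_two])
  have hcz : c z = z := by
    obtain ⟨h00, h10⟩ := haxis z (-1) fun s => by
      rw [show L s = lam ![s, 0] from rfl, hlin, MulEquiv.apply_symm_apply, negS_mulVec]
      congr 1
      funext b; fin_cases b <;> simp
    have hdet := CfsgLib.SL2.det_eq (ρ (c z))
    rw [h00, h10] at hdet
    have h11 : ((ρ (c z) : SL(2, F)) : Matrix (Fin 2) (Fin 2) F) 1 1 = -1 := by linear_combination -hdet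
    have h2' : ρ (c z) * ρ (c z) = 1 := by
      rw [← map_mul, ← hcmul, show z * z = 1 from Subtype.ext hzz,
        show c 1 = 1 from Subtype.ext (by simp [c]), map_one]
    have h01 := congrFun (congrFun (congrArg (fun g : SL(2, F) => (g : Matrix (Fin 2) (Fin 2) F)) h2') 0) 1
    simp [Matrix.mul_apply, Fin.sum_univ_two, h00, h11] at h01
    refine ρ.injective (Subtype.ext ?_)
    rw [MulEquiv.apply_symm_apply]
    ext a b; fin_cases a <;> fin_cases b <;> simp [negS, h00, h10, h11]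
    exact (mul_eq_zero.1 (show (2 : F) * ((ρ (c z) : SL(2, F)) : Matrix (Fin 2) (Fin 2) F) 0 1 = 0 by
      linear_combination -h01)).resolve_left h2F
  have hx10 : (x : Matrix (Fin 2) (Fin 2) F) 1 0 ≠ 0 := fun e => by
    have h1 : x * upS 1 * x⁻¹ = upS ((x : Matrix (Fin 2) (Fin 2) F) 0 0 ^ 2 * 1) :=
      CfsgLib.PushUp.RankOne.conj_upS e 1
    have hci : c w⁻¹ = (c w)⁻¹ := Subtype.ext (by simp [c, mul_assoc])
    have h2 : c (w * ρ.symm (upS 1) * w⁻¹) = c (ρ.symm (upS ((x : Matrix (Fin 2) (Fin 2) F) 0 0 ^ 2 * 1))) := by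
      refine ρ.injective ?_
      rw [hcmul, hcmul, hci, map_mul, map_mul, map_inv, hf, hf, hfid, hfid, ← hx, h1]
    have h3 : w * ρ.symm (upS 1) * w⁻¹ = ρ.symm (upS ((x : Matrix (Fin 2) (Fin 2) F) 0 0 ^ 2 * 1)) :=
      Subtype.ext (by simpa [c] using congrArg Subtype.val h2)
    have h4 := congrArg (fun g => ((ρ g : SL(2, F)) : Matrix (Fin 2) (Fin 2) F) 1 0) h3
    simp [w, Matrix.SpecialLinearGroup.coe_inv, Matrix.adjugate_fin_two_of, weylS_coe, upS_coe,
      Matrix.mul_apply, Fin.sum_univ_two] at h4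
  have hxx : x * x = negS F := by
    rw [hx, ← map_mul, ← hcmul, hwz, hcz, MulEquiv.apply_symm_apply]
  set γ := (x : Matrix (Fin 2) (Fin 2) F) 1 0 with hγ
  set α := (x : Matrix (Fin 2) (Fin 2) F) 0 0 with hα
  have hx11 : (x : Matrix (Fin 2) (Fin 2) F) 1 1 = -α := by
    have h1 := congrFun (congrFun (congrArg (fun g : SL(2, F) => (g : Matrix (Fin 2) (Fin 2) F)) hxx) 1) 0
    simp [Matrix.mul_apply, Fin.sum_univ_two, negS, ← hα, ← hγ] at h1
    have h2 : γ * ((x : Matrix (Fin 2) (Fin 2) F) 1 1 + α) = 0 := by linear_combination h1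
    exact eq_neg_of_add_eq_zero_left ((mul_eq_zero.1 h2).resolve_left hx10)
  set σ := α / γ
  set u := ρ.symm (upS (-σ))
  have huT : (u : H) ∈ (T : Subgroup H) := (hmemU u).2 ⟨_, (ρ.apply_symm_apply _).symm⟩
  suffices h1 : (u : H) * t = 1 by
    rw [eq_inv_of_mul_eq_one_right h1]; exact inv_mem u.2
  -- the modified element centralizes `E₀`
  let c' : E₀ →* E₀ := MonoidHom.mk' (fun g => u * c g * u⁻¹) fun g g' => by rw [hcmul]; group
  have hc'U : ∀ s, c' (ρ.symm (upS s)) = ρ.symm (upS s) := fun s => ρ.injective (by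
    show ρ (u * c _ * u⁻¹) = _
    rw [map_mul, map_mul, map_inv, hf, hfid, MulEquiv.apply_symm_apply, MulEquiv.apply_symm_apply,
      ← upS_add, mul_inv_eq_iff_eq_mul, ← upS_add, add_comm])
  have hy : ((ρ (c' w) : SL(2, F)) : Matrix (Fin 2) (Fin 2) F) = !![0, -γ⁻¹; γ, 0] := by
    show ((ρ (u * c w * u⁻¹) : SL(2, F)) : Matrix (Fin 2) (Fin 2) F) = _
    rw [map_mul, map_mul, map_inv, MulEquiv.apply_symm_apply, ← hx]
    have hdet := CfsgLib.SL2.det_eq x
    rw [← hα, ← hγ, hx11] at hdet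
    simp only [Matrix.SpecialLinearGroup.coe_mul, Matrix.SpecialLinearGroup.coe_inv, upS_coe,
      Matrix.adjugate_fin_two_of]
    ext a b; fin_cases a <;> fin_cases b <;>
      simp [Matrix.mul_apply, Fin.sum_univ_two, ← hα, ← hγ, hx11, σ]
    all_goals simp [Matrix.vecMul, dotProduct, Fin.sum_univ_two, ← hα, ← hγ, hx11]
    all_goals try field_simp
    all_goals first | ring1 | linear_combination -hdet | linear_combination hdet
  have hγ1 : γ = -1 := by
    have h1 : (w * ρ.symm (upS 1)) * (w * ρ.symm (upS 1)) * (w * ρ.symm (upS 1)) = 1 := ρ.injective (by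
      simp only [w, map_mul, MulEquiv.apply_symm_apply, map_one]
      apply Subtype.ext
      simp only [Matrix.SpecialLinearGroup.coe_mul, weylS_coe, upS_coe, Matrix.SpecialLinearGroup.coe_one]
      ext a b; fin_cases a <;> fin_cases b <;> simp [Matrix.mul_apply, Fin.sum_univ_two])
    have h2 := congrArg (fun g => ((ρ (c' g) : SL(2, F)) : Matrix (Fin 2) (Fin 2) F) 0 0) h1
    simp only [map_mul, hc'U, MulEquiv.apply_symm_apply, map_one, Matrix.SpecialLinearGroup.coe_mul, hy,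
      upS_coe, Matrix.SpecialLinearGroup.coe_one] at h2
    simp [Matrix.mul_apply, Fin.sum_univ_two] at h2
    field_simp at h2
    linear_combination -h2
  have hc'w : c' w = w := ρ.injective (Subtype.ext (by
    rw [hy, hγ1, MulEquiv.apply_symm_apply, weylS_coe]; norm_num))
  have hc'id : ∀ g, c' g = g := by
    have htop' : (MonoidHom.eqLocus c' (MonoidHom.id E₀)).map ρ.toMonoidHom = ⊤ :=
      CfsgLib.PushUp.RankOne.eq_top_of_upper (fun s => ⟨_, hc'U s, ρ.apply_symm_apply _⟩)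
        (h := weylS F) ⟨w, hc'w, ρ.apply_symm_apply _⟩ (by simp [weylS_coe])
    intro g
    obtain ⟨g', hg', e⟩ := htop'.ge (Subgroup.mem_top (ρ g))
    exact ρ.injective e ▸ hg'
  have hcm : ∀ g : E₀, (u : H) * t * g = g * ((u : H) * t) := fun g => by
    have := congrArg Subtype.val (hc'id g)
    simp [c', c] at this
    rw [← mul_inv_eq_iff_eq_mul]
    simpa [mul_assoc] using this
  have hfixL : ∀ s, ((u : H) * t) • L s = L s := fun s => by
    rw [mul_smul, htL]; exact hLU s u ⟨huT, hsup.symm ▸ u.2⟩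
  refine h.faithful _ fun v => ?_
  have hfE : ∀ v ∈ fixedSub E₀, ((u : H) * t) • (v : W) = v := fun v hv => by
    rw [mul_smul, hfix t ht v (fixedSub_anti (hsup ▸ inf_le_right : U ≤ E₀) hv)]
    exact hv u u.2
  have hW : v = (v - (L (ψ v 0) + (w : H) • L (-ψ v 1))) + (L (ψ v 0) + (w : H) • L (-ψ v 1)) := by abel
  rw [hW, smul_add, smul_add, hfixL, smul_smul ((u : H) * t), hcm, mul_smul (w : H), hfixL, hfE _ ((hker _).1 ?_)]
  rw [map_sub, map_add, heq, MulEquiv.apply_symm_apply]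
  simp only [L, hlψ, w, MulEquiv.apply_symm_apply, weylS_coe]
  funext a
  fin_cases a <;> simp [Matrix.mulVec, dotProduct, Fin.sum_univ_two, Matrix.vecHead, Matrix.vecTail]

/-- In that case the group is `SL₂`. -/
theorem exists_sl2_of_fixes (h : Base p T M W) (hp2 : p ≠ 2) (hr : 1 ≤ r) (hE : IsComponents E W)
    (htop : (⨆ i, E i) ⊔ (T : Subgroup H) = ⊤)
    (hconj : ∀ i j, ∃ t ∈ (T : Subgroup H), MulAut.conj t • E i = E j)
    (hperm : ∀ t ∈ (T : Subgroup H), ∀ i, ∃ j, MulAut.conj t • E i = E j)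
    (htype : ∀ i, IsSL2Comp p (E i) W)
    (hfix : ∀ t ∈ (T : Subgroup H), ∀ v ∈ fixedSub ((T : Subgroup H) ⊓ ⨆ i, E i), t • (v : W) = v) :
    ∃ (F : Type) (_ : Field F) (_ : Fintype F) (n : ℕ),
      1 ≤ n ∧ Fintype.card F = p ^ n ∧ Nonempty (H ≃* SL(2, F)) := by
  obtain ⟨F, hF, hF', n, ρ, ψ, hn, hcard, -, -, -⟩ := htype ⟨0, hr⟩
  exact ⟨F, hF, hF', n, hn, hcard, ⟨(Subgroup.topEquiv.symm.trans
    (MulEquiv.subgroupCongr (comp_eq_top_of_fixes h hp2 hr hE htop hconj hperm htype hfix).symm)).trans ρ⟩⟩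

end CfsgLib.PushUp.OddTransfer
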